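import Cfsg.Agent.H300.IMCNear
import Cfsg.Agent.H94.IMCPerm
import Cfsg.Agent.H94.IMCLoc

/-!
# Degrees divisible by `p ^ k` (helper300)

`PowDeg p k S` : some irreducible character of `S` has degree divisible by `p ^ k`.  Tools for the sporadic rows
(`k = 2`) of S4844.

* `of_deg` : a degree;
* `of_block` : a block with a defect group of index divisible by `p ^ k`;
* `of_centralChar` : `ω_χ(g)` a unit and `p ^ k ∣ |g^G|`;
* `of_nn`, `of_quotients`, `of_RD`, `of_RD'`, `of_local`, `of_cent`, `of_star`, `of_star2`, `of_hasDZ`.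
-/

set_option autoImplicit false

open Cfsg
open scoped ComplexConjugate

namespace Cfsg.Agent.H300.PSq

open Cfsg.Agent.H625.SylConst Cfsg.Agent.Blocks.Local Cfsg.Agent.Blocks.Basic Cfsg.Agent.Blocks

universe u v

/-- some irreducible character of degree divisible by `p ^ k` -/
def PowDeg (p k : ℕ) (S : Type*) [Group S] : Prop := ∃ χ : IrrCharacter S, p ^ k ∣ charDegree (χ : S → ℂ)

theorem PowDeg.mono {p k l : ℕ} {S : Type*} [Group S] (h : PowDeg p k S) (hl : l ≤ k) : PowDeg p l S := by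
  obtain ⟨χ, hχ⟩ := h
  exact ⟨χ, (pow_dvd_pow p hl).trans hχ⟩

/-- surjections -/
theorem PowDeg.of_surjective {p k : ℕ} {S : Type u} [Group S] [Finite S] {T : Type v} [Group T] (f : S →* T)
    (hf : Function.Surjective f) (h : PowDeg p k T) : PowDeg p k S := by
  obtain ⟨χ, hχ⟩ := h
  refine ⟨⟨(χ : T → ℂ) ∘ f, Cfsg.Agent.Characters.Core.isIrr_comp f hf χ.2⟩, ?_⟩
  have h2 : charDegree ((χ : T → ℂ) ∘ f) = charDegree (χ : T → ℂ) := by
    unfold charDegree
    rw [Function.comp_apply, map_one]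
  show p ^ k ∣ charDegree ((χ : T → ℂ) ∘ f)
  rw [h2]
  exact hχ

theorem PowDeg.of_mulEquiv {p k : ℕ} {S : Type u} [Group S] [Finite S] {T : Type v} [Group T] (e : S ≃* T)
    (h : PowDeg p k T) : PowDeg p k S := h.of_surjective e.toMonoidHom e.surjective

variable {G : Type u} [Group G] {p : ℕ}

/-- a degree -/
theorem of_deg {k n : ℕ} (χ : IrrCharacter G) (h : charDegree (χ : G → ℂ) = n) (hd : p ^ k ∣ n) : PowDeg p k G :=
  ⟨χ, by rw [h]; exact hd⟩

theorem of_one {k n : ℕ} (χ : IrrCharacter G) (h : (χ : G → ℂ) 1 = n) (hd : p ^ k ∣ n) : PowDeg p k G :=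
  of_deg χ (H670.PSing.charDegree_eq_of h) hd

variable [Finite G] [hp : Fact p.Prime] {M : Ideal AlgInt}

/-- a block with a defect group of index divisible by `p ^ k` -/
theorem of_block (hM : IsPModular p M) {B : Set (IrrCharacter G)} (hB : IsPBlock M B) {D : Subgroup G}
    (hD : IsDefectGroup p M B D) {k : ℕ} (hk : p ^ k ∣ D.index) : PowDeg p k G := by
  have : M.IsPrime := hM.2.1.isPrime
  obtain ⟨χ, rfl⟩ := hB
  refine ⟨χ, ?_⟩
  have h1 := Cfsg.Agent.H592.Defect.le_degree_add p hM (B := blockOf M (χ : G → ℂ)) ⟨χ, rfl⟩ hD (mem_blockOf_self χ)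
  have h2 := D.card_mul_index
  rw [← h2, Nat.factorization_mul Nat.card_pos.ne' Subgroup.index_ne_zero_of_finite,
    Finsupp.add_apply] at h1
  have h3 : k ≤ D.index.factorization p :=
    (hp.out.pow_dvd_iff_le_factorization Subgroup.index_ne_zero_of_finite).1 hk
  exact (hp.out.pow_dvd_iff_le_factorization (charDegree_pos χ.2).ne').2 (by omega)

/-- `ω_χ(g)` is a unit, `p ^ k ∣ |g^G|` -/
theorem of_centralChar (hM : IsPModular p M) (χ : IrrCharacter G) {g : G} {k : ℕ}
    (hg : p ^ k ∣ (Subgroup.centralizer ({g} : Set G)).index) (h : ¬ MemLocalIdeal M (centralChar (χ : G → ℂ) g)) :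
    PowDeg p k G := by
  have hP : M.IsPrime := hM.2.1.isPrime
  refine ⟨χ, ?_⟩
  by_contra hd
  apply h
  -- `ω_χ(g) = |g^G| χ(g) / χ(1)`
  set n := (Subgroup.centralizer ({g} : Set G)).index with hn
  set d := charDegree (χ : G → ℂ) with hdd
  have hd0 : d ≠ 0 := (charDegree_pos χ.2).ne'
  have hn0 : n ≠ 0 := Subgroup.index_ne_zero_of_finite
  obtain ⟨a, d', hd', hda⟩ := Nat.exists_eq_pow_mul_and_not_dvd hd0 p hp.out.one_lt.ne'
  have hak : a < k := by
    by_contra hcon
    push Not at hcon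
    exact hd (hda ▸ (pow_dvd_pow p hcon).mul_right d')
  have h1 : p ^ (a + 1) ∣ n := (pow_dvd_pow p (by omega)).trans hg
  obtain ⟨m, hm⟩ := h1
  have hd'0 : (d' : ℂ) ≠ 0 := by
    intro h0
    apply hd'
    rw [Nat.cast_eq_zero.1 h0]
    exact dvd_zero p
  have hp0 : (p : ℂ) ≠ 0 := by exact_mod_cast hp.out.ne_zero
  have e : centralChar (χ : G → ℂ) g = ((p * m : ℕ) : ℂ) * ((χ : G → ℂ) g * (d' : ℂ)⁻¹) := by
    rw [centralChar_def, irr_one_eq_charDegree χ.2, ← hn, ← hdd, hm, hda]
    push_cast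
    field_simp
    ring
  rw [e]
  refine memLocalIdeal_mul_right ((memLocalIdeal_natCast_iff hM _).2 (dvd_mul_right p m)) ?_
  exact memLocalRing_mul (memLocalRing_of_isIntegral (CharactersDeep.ModCongr.isIntegral_irr χ.2 g))
    (memLocalRing_inv_natCast hM hd')

theorem of_exists (hM : IsPModular p M) {g : G} {k : ℕ}
    (hg : p ^ k ∣ (Subgroup.centralizer ({g} : Set G)).index)
    (h : ∃ χ : IrrCharacter G, ¬ MemLocalIdeal M (centralChar (χ : G → ℂ) g)) : PowDeg p k G := by
  obtain ⟨χ, hχ⟩ := h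
  exact of_centralChar hM χ hg hχ

/-- the NN chains of S5009 -/
theorem of_nn (hM : IsPModular p M) {x : G} {k : ℕ} (h : Cfsg.Agent.H652.Four.NN M (Cfsg.Agent.H652.Four.cl x))
    (hd : p ^ k ∣ (Subgroup.centralizer ({x} : Set G)).index) : PowDeg p k G := by
  obtain ⟨χ, hχ⟩ := h
  refine of_exists hM hd ⟨χ, ?_⟩
  rwa [Cfsg.Agent.H652.Four.om_cl χ.2] at hχ

/-- `p ^ k` divides the class size of `s` and no quotient of two conjugates of `s` is a nontrivial `p`-element. -/
theorem of_quotients {s : G} {k : ℕ} (hd : p ^ k ∣ (Subgroup.centralizer ({s} : Set G)).index)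
    (hs : ∀ g h : G, IsConj s g → IsConj s h → (∃ k : ℕ, orderOf (g * h⁻¹) = p ^ k) → g = h) :
    PowDeg p k G := by
  obtain ⟨M, hM⟩ := ExistsModular.exists_isPModular hp.out
  obtain ⟨P⟩ : Nonempty (Sylow p G) := inferInstance
  refine of_exists hM hd (H33.exists_centralChar hM s P ?_)
  intro g h hg hh hP
  have h1 := hs g h hg hh ?_
  · rw [h1, mul_inv_cancel]
  · obtain ⟨k, hk⟩ := IsPGroup.iff_orderOf.1 P.isPGroup' ⟨_, hP⟩
    exact ⟨k, by rw [← hk, Subgroup.orderOf_mk]⟩

/-- Theorem RD -/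
theorem of_RD (D : Subgroup G) (hD : IsPGroup p D) (u : G) {k : ℕ}
    (hu : ¬ p ∣ orderOf u) (hDu : D ≤ Subgroup.centralizer ({u} : Set G))
    (hcard : Nat.card D = p ^ (Nat.card (Subgroup.centralizer ({u} : Set G))).factorization p)
    (hd : p ^ k ∣ (Subgroup.centralizer ({u} : Set G)).index)
    (hs : ∀ a b : G, a ∈ Subgroup.centralizer (D : Set G) → b ∈ Subgroup.centralizer (D : Set G) →
      IsConj u a → IsConj u b → (∃ k : ℕ, orderOf (a * b⁻¹) = p ^ k) → a = b) : PowDeg p k G := by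
  obtain ⟨M, hM⟩ := ExistsModular.exists_isPModular hp.out
  exact of_exists hM hd (H33.exists_RD hM D hD u hu hDu hcard hs)

/-- **STAR** -/
theorem of_star (s : G) (R : Sylow p G) {k : ℕ}
    (hs : ∀ g h : G, IsConj s g → IsConj s h → g * h⁻¹ ∈ (R : Subgroup G) → g * h⁻¹ = 1)
    (hk : p ^ k ∣ (Subgroup.centralizer ({s} : Set G)).index) : PowDeg p k G := by
  obtain ⟨M, hM⟩ := ExistsModular.exists_isPModular hp.out
  exact of_exists hM hk (H33.exists_centralChar hM s R hs)

/-- **STAR2**: `R` a Sylow `p`-subgroup of `C(y)`, `p ^ k ∣ |y^G|`, `p ∤ N(y)`. -/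
theorem of_star2 (y : G) (R : Subgroup G) {k : ℕ}
    (hR : Nat.card R = p ^ (Nat.card (Subgroup.centralizer ({y} : Set G))).factorization p)
    (hc : ∀ z ∈ R, Commute y z)
    (hs : ∀ g h : G, IsConj y g → IsConj y h → y⁻¹ * (g * h⁻¹) ∈ R → g * h⁻¹ = y)
    (hk : ¬ p ∣ H483.Star.nn y) (hd : p ^ k ∣ (Subgroup.centralizer ({y} : Set G)).index) : PowDeg p k G := by
  obtain ⟨M, hM⟩ := ExistsModular.exists_isPModular hp.out
  obtain ⟨χ, h1, -⟩ := H483.Star.star2_block p hM y R hR hc hs hk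
  exact of_centralChar hM χ hd h1

/-- **T3** -/
theorem of_local (D : Subgroup G) (hD : IsPGroup p D) {k : ℕ} (hidx : p ^ k ∣ D.index)
    (θ : IrrCharacter (Subgroup.centralizer (D : Set G)))
    (hdeg : (Nat.card (Subgroup.centralizer (D : Set G))).factorization p ≤
      (charDegree (θ : Subgroup.centralizer (D : Set G) → ℂ)).factorization p +
      (Nat.card ↥(D ⊓ Subgroup.centralizer (D : Set G))).factorization p)
    (hst : ∀ g : G, g ∈ Subgroup.normalizer (D : Set G) → (∃ k : ℕ, orderOf g = p ^ k) →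
      g ∈ D ⊔ Subgroup.centralizer (D : Set G)) : PowDeg p k G := by
  classical
  obtain ⟨M, hM⟩ := ExistsModular.exists_isPModular hp.out
  have : M.IsPrime := isPrime_of_isPModular hM
  set e : Set (IrrCharacter (Subgroup.centralizer (D : Set G))) :=
    blockOf M (θ : Subgroup.centralizer (D : Set G) → ℂ) with he
  have heB : IsPBlock M e := ⟨θ, rfl⟩
  have hθe : θ ∈ e := fun g => by rw [sub_self]; exact memLocalIdeal_zero
  have hrev : (charDegree (θ : Subgroup.centralizer (D : Set G) → ℂ)).factorization p +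
      (Nat.card ↥(D ⊓ Subgroup.centralizer (D : Set G))).factorization p ≤
      (Nat.card (Subgroup.centralizer (D : Set G))).factorization p := by
    obtain ⟨d, ρ, hρ, hχ⟩ := θ.2
    have hZ : D.subgroupOf (Subgroup.centralizer (D : Set G)) ≤
        Subgroup.center (Subgroup.centralizer (D : Set G)) :=
      Cfsg.Agent.H686.PairCrit.subgroupOf_le_center D
    have hn : (D.subgroupOf (Subgroup.centralizer (D : Set G))).Normal := by
      constructor
      intro x hx g
      have h1 := Subgroup.mem_center_iff.1 (hZ hx) g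
      rw [h1, mul_inv_cancel_right]
      exact hx
    have hdvd := Cfsg.Agent.S0169.result ρ (D.subgroupOf (Subgroup.centralizer (D : Set G)))
      (fun a ha b _ => ((Subgroup.mem_center_iff.1 (hZ ha)) b).symm)
    have h2 : charDegree (θ : Subgroup.centralizer (D : Set G) → ℂ) = d := by
      apply H670.PSing.charDegree_eq_of
      rw [← hχ, Representation.char_one]
      simp
    rw [Module.finrank_fin_fun, ← h2] at hdvd
    have h3 := (Nat.factorization_le_iff_dvd
      (Cfsg.Agent.Blocks.Basic.charDegree_pos θ.2).ne' Subgroup.index_ne_zero_of_finite).2 hdvd p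
    have h4 : Nat.card (D.subgroupOf (Subgroup.centralizer (D : Set G))) =
        Nat.card ↥(D ⊓ Subgroup.centralizer (D : Set G)) := by
      have h5 : Nat.card ((D.subgroupOf (Subgroup.centralizer (D : Set G))).map
          (Subgroup.centralizer (D : Set G)).subtype) =
          Nat.card (D.subgroupOf (Subgroup.centralizer (D : Set G))) :=
        Subgroup.card_map_of_injective (Subgroup.subtype_injective _)
      rw [Subgroup.subgroupOf_map_subtype] at h5
      exact h5.symm
    have h6 := (D.subgroupOf (Subgroup.centralizer (D : Set G))).card_mul_index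
    rw [← h6, h4, Nat.factorization_mul Nat.card_pos.ne' Subgroup.index_ne_zero_of_finite,
      Finsupp.add_apply]
    omega
  obtain ⟨B, hB⟩ := Cfsg.Agent.H686.PairCrit.crit_mpr hM (Q := D) (e := e) ⟨hD, heB⟩ hθe
    (le_antisymm hrev hdeg) (fun g hg _ hk => hst g hg hk)
  have hdef := Cfsg.Agent.H644.isDefectGroup_of_isMaximalBrauerPair hM hB
  exact of_block hM hB.1.2.1 hdef hidx

/-- **T3** for a subgroup of order `p`: degrees divisible by `|G|_p / p` -/
theorem of_cent (x : G) (hx : orderOf x = p) (θ : IrrCharacter (Subgroup.centralizer ({x} : Set G)))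
    {k : ℕ} (hθ : p ^ k ∣ charDegree (θ : Subgroup.centralizer ({x} : Set G) → ℂ))
    (hc : (Nat.card (Subgroup.centralizer ({x} : Set G))).factorization p ≤ k + 1) {m : ℕ}
    (hG : p ^ (m + 1) ∣ Nat.card G) : PowDeg p m G := by
  have hcent : Subgroup.centralizer ((Subgroup.zpowers x : Subgroup G) : Set G) = Subgroup.centralizer {x} := by
    rw [Subgroup.zpowers_eq_closure, Subgroup.centralizer_closure]
  have hD : Nat.card (Subgroup.zpowers x) = p := by rw [Nat.card_zpowers, hx]
  revert θ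
  rw [← hcent] at hc ⊢
  intro θ hθ
  have hle : Subgroup.zpowers x ≤ Subgroup.centralizer ((Subgroup.zpowers x : Subgroup G) : Set G) := by
    rw [hcent, Subgroup.zpowers_le, Subgroup.mem_centralizer_singleton_iff]
  refine of_local (Subgroup.zpowers x) (IsPGroup.of_card (n := 1) (by rw [hD, pow_one])) ?_ θ ?_ ?_
  · have h1 := (Subgroup.zpowers x).card_mul_index
    rw [hD] at h1
    rw [← h1, pow_succ'] at hG
    exact (Nat.mul_dvd_mul_iff_left hp.out.pos).1 hG
  · rw [inf_eq_left.2 hle, hD, hp.out.factorization_self]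
    have h0 := (Cfsg.Agent.Blocks.Basic.charDegree_pos θ.2).ne'
    have h1 := (hp.out.pow_dvd_iff_le_factorization h0).1 hθ
    exact hc.trans (Nat.add_le_add_right h1 1)
  · intro g hg hk
    refine Subgroup.mem_sup_right ?_
    rw [hcent, Subgroup.mem_centralizer_singleton_iff]
    obtain ⟨k, hk⟩ := hk
    exact mul_inv_eq_iff_eq_mul.1 (Cfsg.Agent.H852.IMLocal.mem_cent_of_normalizer hx hg ⟨k, hk⟩)

/-- `IM p C(x)` for `x` of order `p` with `|C(x)|_p ≤ p ^ 2` -/
theorem of_cent_im (x : G) (hx : orderOf x = p) (h : H33.IM p (Subgroup.centralizer ({x} : Set G)))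
    (hc : (Nat.card (Subgroup.centralizer ({x} : Set G))).factorization p ≤ 2) {m : ℕ}
    (hG : p ^ (m + 1) ∣ Nat.card G) : PowDeg p m G := by
  obtain ⟨θ, hθ⟩ := h
  exact of_cent x hx θ (k := 1) (by rwa [pow_one]) hc hG

/-- a character of defect zero -/
theorem of_hasDZ (h : H665.NoPQ.HasDZ p G) {k : ℕ} (hG : p ^ k ∣ Nat.card G) : PowDeg p k G := by
  obtain ⟨χ, hχ⟩ := h
  refine ⟨χ, ?_⟩
  rw [hp.out.pow_dvd_iff_le_factorization (charDegree_pos χ.2).ne', hχ]
  exact (hp.out.pow_dvd_iff_le_factorization Nat.card_pos.ne').1 hG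

end Cfsg.Agent.H300.PSq
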